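import Mathlib

set_option autoImplicit false

open Matrix

namespace Cfsg.Agent.H65

variable {F ι : Type*} [Field F] [Fintype ι] [DecidableEq ι]

set_option linter.unusedSectionVars false

/-- In characteristic two, `(A - 1)^2 = 0` for an involutory matrix `A`. -/
theorem sub_one_sq_eq_zero [CharP F 2] (A : Matrix ι ι F) (h : A * A = 1) :
    (A - 1) * (A - 1) = 0 := by
  have h2 : (2 : F) = 0 := CharTwo.two_eq_zero
  rw [sub_mul, mul_sub, mul_sub, h, one_mul, mul_one, one_mul,
    show (1 : Matrix ι ι F) - A - (A - 1) = (2 : F) • (1 - A) by rw [two_smul]; abel, h2, zero_smul]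

/-- `0/1` matrix of a partial bijection `j ↦ φ j` from `Fin ℓ`: rank lower bound via a submatrix. -/
theorem le_rank_of_submatrix_eq_one {n : ℕ} (M : Matrix ι ι F) (r c : Fin n → ι)
    (h : M.submatrix r c = 1) : n ≤ M.rank := by
  have h1 := Matrix.rank_submatrix_le M r c
  rw [h, Matrix.rank_one, Fintype.card_fin] at h1
  exact h1

/-- A matrix factoring through `Fin n` has rank at most `n`. -/
theorem rank_le_of_eq_mul {n : ℕ} (M : Matrix ι ι F) (A : Matrix ι (Fin n) F)
    (B : Matrix (Fin n) ι F) (h : M = A * B) : M.rank ≤ n := by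
  rw [h]
  exact (Matrix.rank_mul_le_left A B).trans ((Matrix.rank_le_card_width A).trans_eq (Fintype.card_fin n))

end Cfsg.Agent.H65
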