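import Cfsg.Agent.H4.StdForms
import Cfsg.Agent.H65.OrthMatrix

/-!
Gauss sums of the standard forms in characteristic two.
-/

set_option autoImplicit false

open QuadraticMap

namespace Cfsg.Agent.H65

variable {F : Type*} [Field F] [CharP F 2] [Fintype F]

theorem sum_sgnF : ∑ c : F, sgnF c = 0 := by
  simpa using sum_sgnF_linear (LinearMap.id : F →ₗ[F] F) (fun h => one_ne_zero (LinearMap.congr_fun h (1 : F)))

/-- The Gauss sum of `x * y` is `q`. -/
theorem sum_sgnF_mul : ∑ x : F, ∑ y : F, sgnF (x * y) = Fintype.card F := by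
  rw [Finset.sum_eq_single (0 : F)]
  · simp
  · intro x _ hx
    exact (Fintype.sum_equiv (Equiv.mulLeft₀ x hx) (fun y => sgnF (x * y)) sgnF fun _ => rfl).trans sum_sgnF
  · simp

theorem sgnF_sum {κ : Type*} (s : Finset κ) (g : κ → F) : sgnF (∑ i ∈ s, g i) = ∏ i ∈ s, sgnF (g i) := by
  classical
  induction s using Finset.induction with
  | empty => simp
  | insert a s ha ih => rw [Finset.sum_insert ha, Finset.prod_insert ha, sgnF_add, ih]

/-- The Gauss sum of the hyperbolic form. -/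
theorem sum_sgnF_quadFormPlus (m : ℕ) :
    ∑ v, sgnF (Cfsg.quadFormPlus m F v) = (Fintype.card F : ℤ) ^ m := by
  classical
  let e : (Fin m ⊕ Fin m → F) ≃ (Fin m → F × F) :=
    (Equiv.sumArrowEquivProdArrow _ _ _).trans (Equiv.arrowProdEquivProdArrow (Fin m) (fun _ => F) (fun _ => F)).symm
  rw [Fintype.sum_equiv e _ (fun p => ∏ i, sgnF ((p i).1 * (p i).2)) (fun v => by
    rw [Cfsg.quadFormPlus, sgnF_sum]; rfl)]
  rw [← Fintype.prod_sum (fun (_ : Fin m) (p : F × F) => sgnF (p.1 * p.2)), Finset.prod_const, Fintype.sum_prod_type, sum_sgnF_mul]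
  simp

/-- The Gauss sum of an anisotropic binary form is `-q`. -/
theorem sum_sgnF_anisotropic {a b : F}
    (hab : ∀ z₁ z₂ : F, z₁ ^ 2 + a * z₁ * z₂ + b * z₂ ^ 2 = 0 → z₁ = 0 ∧ z₂ = 0) :
    ∑ z : Fin 2 → F, sgnF (z 0 ^ 2 + a * z 0 * z 1 + b * z 1 ^ 2) = -(Fintype.card F : ℤ) := by
  classical
  set q := (Fintype.card F : ℤ) with hq
  set f : (Fin 2 → F) → F := fun z => z 0 ^ 2 + a * z 0 * z 1 + b * z 1 ^ 2 with hf
  have h1 : ∀ z, ∑ l : F, sgnF (f (l • z)) = if z = 0 then q else 0 := fun z => by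
    have hl : ∀ l : F, f (l • z) = l ^ 2 * f z := fun l => by simp [hf]; ring
    split_ifs with hz
    · subst hz; simp [hf, hq]
    · have hne : f z ≠ 0 := fun h => hz (by
        obtain ⟨e0, e1⟩ := hab _ _ h
        funext i; fin_cases i <;> assumption)
      obtain ⟨r, hr⟩ := isSquare_char_two (f z)
      have hr0 : r ≠ 0 := by rintro rfl; exact hne (by rw [← hr, mul_zero])
      rw [← sum_sgnF (F := F)]
      refine Fintype.sum_equiv (Equiv.mulRight₀ r hr0) _ _ fun l => ?_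
      rw [hl, ← hr, show l ^ 2 * (r * r) = (l * r) ^ 2 by ring, sgnF_sq]; rfl
  have h2 : ∀ l : F, ∑ z, sgnF (f (l • z)) = if l = 0 then q ^ 2 else ∑ z, sgnF (f z) := fun l => by
    split_ifs with hl
    · subst hl; simp [hf, hq]
    · exact Fintype.sum_equiv (MulAction.toPerm (Units.mk0 l hl) : Equiv.Perm (Fin 2 → F)) _ _ fun z => rfl
  have h3 : ∑ z, ∑ l : F, sgnF (f (l • z)) = ∑ l : F, ∑ z, sgnF (f (l • z)) := Finset.sum_comm
  simp only [h1, h2] at h3
  have h4 : ∀ S : ℤ, (∑ l : F, if l = 0 then q ^ 2 else S) = q ^ 2 + (q - 1) * S := fun S => by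
    rw [Fintype.sum_eq_add_sum_compl (0 : F), if_pos rfl,
      Finset.sum_congr rfl (fun l hl => if_neg (by simpa using hl)), Finset.sum_const, Finset.card_compl,
      Finset.card_singleton, nsmul_eq_mul, Nat.cast_sub Fintype.card_pos, Nat.cast_one]
  rw [Finset.sum_ite_eq' Finset.univ (0 : Fin 2 → F), if_pos (Finset.mem_univ _), h4] at h3
  have hq1 : 1 < q := by rw [hq]; exact_mod_cast Fintype.one_lt_card
  exact mul_left_cancel₀ (show q - 1 ≠ 0 by omega) (by linear_combination -h3)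

/-- The Gauss sum of the minus form. -/
theorem sum_sgnF_quadFormMinus (m : ℕ) {a b : F}
    (hab : ∀ z₁ z₂ : F, z₁ ^ 2 + a * z₁ * z₂ + b * z₂ ^ 2 = 0 → z₁ = 0 ∧ z₂ = 0) :
    ∑ v, sgnF (Cfsg.quadFormMinus m F a b v) = -(Fintype.card F : ℤ) ^ (m + 1) := by
  rw [Fintype.sum_equiv (Equiv.sumArrowEquivProdArrow (Fin m ⊕ Fin m) (Fin 2) F) _
    (fun p => sgnF (Cfsg.quadFormPlus m F p.1) * sgnF (p.2 0 ^ 2 + a * p.2 0 * p.2 1 + b * p.2 1 ^ 2))
    (fun v => by rw [Cfsg.quadFormMinus, sgnF_add]; rfl)]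
  rw [Fintype.sum_prod_type]
  simp only [← Finset.mul_sum, sum_sgnF_anisotropic hab, ← Finset.sum_mul, sum_sgnF_quadFormPlus]
  ring

/-- A minus form has no totally singular subspace of half the dimension. -/
theorem qMinus_singular_finrank_ne (m : ℕ) {a b : F}
    (hab : ∀ z₁ z₂ : F, z₁ ^ 2 + a * z₁ * z₂ + b * z₂ ^ 2 = 0 → z₁ = 0 ∧ z₂ = 0)
    {W : Submodule F ((Fin m ⊕ Fin m) ⊕ Fin 2 → F)} (hW : ∀ w ∈ W, H4.qMinus m F a b w = 0) :
    Module.finrank F W ≠ m + 1 := by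
  classical
  intro hd
  have hQ := qMinus_nd m hab
  have h := qSum_eq_qSumOn_perp (H4.qMinus m F a b) W hW
  have hle : W ≤ H4.perp (H4.qMinus m F a b) W := fun a ha b hb =>
    H4.polar_eq_zero_of_singular hW hb ha
  rw [← Submodule.eq_of_le_of_finrank_eq hle (by
    rw [H4.finrank_perp hQ, Module.finrank_fintype_fun_eq_card]; simp; omega)] at h
  have hpos : 0 ≤ qSumOn (H4.qMinus m F a b) W :=
    Finset.sum_nonneg fun v hv => by rw [hW v (Finset.mem_filter.mp hv).2, sgnF_zero]; norm_num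
  rw [← h] at hpos
  unfold qSum at hpos
  rw [H4.coe_qMinus, sum_sgnF_quadFormMinus m hab] at hpos
  have : (0 : ℤ) < (Fintype.card F : ℤ) ^ (m + 1) := pow_pos (by exact_mod_cast Fintype.card_pos) _
  omega

end Cfsg.Agent.H65
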