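import Mathlib

set_option autoImplicit false

open LinearMap

namespace Cfsg.Agent.H65

section Lin

variable {F V : Type*} [Field F] [AddCommGroup V] [Module F V] [FiniteDimensional F V]

/-- Two linear maps of square zero and equal rank are intertwined by a linear automorphism. -/
theorem exists_equiv_intertwine (N N' : V →ₗ[F] V) (hN : ∀ v, N (N v) = 0) (hN' : ∀ v, N' (N' v) = 0)
    (hr : Module.finrank F (range N) = Module.finrank F (range N')) :
    ∃ g : V ≃ₗ[F] V, ∀ v, g (N v) = N' (g v) := by
  have model : ∀ M : V →ₗ[F] V, (∀ v, M (M v) = 0) → ∀ (s k : ℕ),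
      Module.finrank F (range M) = s → s + s + k = Module.finrank F V →
      ∃ e : (((Fin s → F) × (Fin s → F)) × (Fin k → F)) ≃ₗ[F] V,
        ∀ (a b : Fin s → F) (c : Fin k → F),
          M (e ((a, b), c)) = e ((0, a), 0) := by
    intro M hM s k hs hk
    obtain ⟨X, hX⟩ := Submodule.exists_isCompl (ker M)
    have hle : range M ≤ ker M := by
      rintro x ⟨y, rfl⟩
      exact LinearMap.mem_ker.mpr (hM y)
    obtain ⟨Y, hYd, hYs⟩ : ∃ Y : Submodule F V, Disjoint (range M) Y ∧ range M ⊔ Y = ker M := by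
      obtain ⟨Y, hY⟩ := Submodule.exists_isCompl (range M)
      refine ⟨Y ⊓ ker M, ?_, ?_⟩
      · exact hY.disjoint.mono_right inf_le_left
      · rw [← sup_inf_assoc_of_le Y hle, hY.sup_eq_top, top_inf_eq]
    have hrn := LinearMap.finrank_range_add_finrank_ker M
    have hXdim : Module.finrank F X = s := by
      have := Submodule.finrank_add_eq_of_isCompl hX
      omega
    have hYdim : Module.finrank F Y = k := by
      have h1 := Submodule.finrank_sup_add_finrank_inf_eq (range M) Y
      rw [hYs, hYd.eq_bot, finrank_bot] at h1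
      omega
    obtain ⟨ex⟩ : Nonempty ((Fin s → F) ≃ₗ[F] X) :=
      FiniteDimensional.nonempty_linearEquiv_of_finrank_eq (by simp [hXdim])
    obtain ⟨ey⟩ : Nonempty ((Fin k → F) ≃ₗ[F] Y) :=
      FiniteDimensional.nonempty_linearEquiv_of_finrank_eq (by simp [hYdim])
    let L : ((Fin s → F) × (Fin s → F)) × (Fin k → F) →ₗ[F] V :=
      ((X.subtype.comp ex.toLinearMap).coprod (M.comp (X.subtype.comp ex.toLinearMap))).coprod
        (Y.subtype.comp ey.toLinearMap)
    have hL : ∀ a b c, L ((a, b), c) = (ex a : V) + M (ex b) + ey c := by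
      intros; simp [L]
    have hMY : ∀ y : Y, M (y : V) = 0 := fun y =>
      LinearMap.mem_ker.mp (hYs ▸ (le_sup_right : Y ≤ range M ⊔ Y) y.2)
    have hXker : ∀ x : X, M (x : V) = 0 → x = 0 := fun x hx => by
      have : (x : V) ∈ ker M ⊓ X := ⟨LinearMap.mem_ker.mpr hx, x.2⟩
      rw [hX.inf_eq_bot] at this
      exact Subtype.ext (by simpa using this)
    have hinj : Function.Injective L := by
      rw [← LinearMap.ker_eq_bot, eq_bot_iff]
      rintro ⟨⟨a, b⟩, c⟩ h
      rw [LinearMap.mem_ker, hL] at h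
      have ha : a = 0 := by
        have := congrArg M h
        simp only [map_add, hM, hMY, add_zero, map_zero] at this
        simpa using hXker _ this
      subst ha
      simp only [map_zero, ZeroMemClass.coe_zero, zero_add] at h
      have hb : M (ex b) ∈ range M ⊓ Y :=
        ⟨LinearMap.mem_range_self _ _, by
          rw [eq_neg_of_add_eq_zero_left h]; exact neg_mem (ey c).2⟩
      rw [hYd.eq_bot, Submodule.mem_bot] at hb
      have hb0 : b = 0 := by simpa using hXker _ hb
      rw [hb, zero_add] at h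
      have hc : c = 0 := by
        have : ey c = 0 := Subtype.ext (by simpa using h)
        simpa using this
      simp [hb0, hc]
    have hdim : Module.finrank F (((Fin s → F) × (Fin s → F)) × (Fin k → F)) = Module.finrank F V := by
      simp; omega
    refine ⟨L.linearEquivOfInjective hinj hdim, fun a b c => ?_⟩
    rw [LinearMap.linearEquivOfInjective_apply, LinearMap.linearEquivOfInjective_apply, hL, hL]
    simp [map_add, hM, hMY]
  have hle : 2 * Module.finrank F (range N) ≤ Module.finrank F V := by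
    have hle : range N ≤ ker N := by
      rintro x ⟨y, rfl⟩
      exact LinearMap.mem_ker.mpr (hN y)
    have := Submodule.finrank_mono hle
    have := LinearMap.finrank_range_add_finrank_ker N
    omega
  obtain ⟨k, hk⟩ : ∃ k, Module.finrank F (range N) + Module.finrank F (range N) + k = Module.finrank F V :=
    ⟨Module.finrank F V - 2 * Module.finrank F (range N), by omega⟩
  obtain ⟨e, he⟩ := model N hN _ k rfl hk
  obtain ⟨e', he'⟩ := model N' hN' _ k hr.symm hk
  refine ⟨e.symm.trans e', fun v => ?_⟩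
  obtain ⟨⟨⟨a, b⟩, c⟩, rfl⟩ := e.surjective v
  simp [he, he']

/-- A nonzero square-zero map commutes with automorphisms of any nonzero square determinant. -/
theorem exists_commute_det_sq (N : V →ₗ[F] V) (hN : ∀ v, N (N v) = 0) (h0 : N ≠ 0) (μ : F)
    (hμ : μ ≠ 0) :
    ∃ c : V ≃ₗ[F] V, (∀ v, c (N v) = N (c v)) ∧ LinearMap.det (c : V →ₗ[F] V) = μ ^ 2 := by
  obtain ⟨x, hx⟩ : ∃ x, N x ≠ 0 := by
    by_contra h
    exact h0 (LinearMap.ext fun v => by_contra fun hv => h ⟨v, hv⟩)
  obtain ⟨ψ, hψ⟩ : ∃ ψ : Module.Dual F V, ψ (N x) ≠ 0 := by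
    by_contra h
    exact hx ((Module.forall_dual_apply_eq_zero_iff F _).mp fun ψ => by_contra fun hv => h ⟨ψ, hv⟩)
  let ψ' : Module.Dual F V := (ψ (N x))⁻¹ • ψ
  have h1 : ψ' (N x) = 1 := by simp [ψ', inv_mul_cancel₀ hψ]
  let c₀ : V →ₗ[F] V :=
    (LinearMap.transvection ((μ - 1) • ψ'.comp N) x) ∘ₗ (LinearMap.transvection ((μ - 1) • ψ') (N x))
  have hc : ∀ v, c₀ v = v + ((μ - 1) * ψ' v) • N x + ((μ - 1) * ψ' (N v)) • x := by
    intro v
    simp [c₀, LinearMap.transvection.apply, hN]
  have hdet : LinearMap.det c₀ = μ ^ 2 := by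
    simp [c₀, LinearMap.det_comp, LinearMap.transvection.det, h1, pow_two]
  have hu : IsUnit (LinearMap.det c₀) := by
    rw [hdet]; exact (pow_ne_zero 2 hμ).isUnit
  have hbij : Function.Bijective c₀ :=
    (Module.End.isUnit_iff c₀).mp ((LinearMap.isUnit_iff_isUnit_det c₀).mpr hu)
  refine ⟨LinearEquiv.ofBijective c₀ hbij, fun v => ?_, ?_⟩
  · simp [LinearEquiv.ofBijective_apply, hc, map_add, map_smul, hN]
  · convert hdet using 2
    exact LinearMap.ext fun v => rfl

end Lin

end Cfsg.Agent.H65
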