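import Cfsg.Agent.H3.Count

/-!
Involutions of unitary groups in characteristic two, in terms of `N = t - 1`.
-/

set_option autoImplicit false

namespace Cfsg.Agent.H65

variable {F V : Type*} [Field F] [Fintype F] [AddCommGroup V] [Module F V] {σ : F →+* F} {q : ℕ}
  {B : V →ₛₗ[σ] V →ₗ[F] F} {N N' : V →ₗ[F] V}

/-- `N = t - 1` for an involutory isometry `t` of the Hermitian form `B` in characteristic two. -/
structure HermInv (B : V →ₛₗ[σ] V →ₗ[F] F) (q : ℕ) (N : V →ₗ[F] V) : Prop where
  herm : H3.IsHerm B q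
  sq : ∀ v, N (N v) = 0
  adj : ∀ u v, B (N u) v = B u (N v)

theorem HermInv.range_isotropic (d : HermInv B q N) (u v : V) : B (N u) (N v) = 0 := by
  rw [d.adj, d.sq, map_zero]

variable {r : ℕ}

/-- A Gram family of `B(·, N ·)` and its image are independent. -/
theorem HermInv.linearIndependent_gram (d : HermInv B q N) {x : Fin r → V}
    (hx : ∀ i j, B (x i) (N (x j)) = if i = j then 1 else 0) :
    LinearIndependent F (Fin.append x (fun i => N (x i))) := by
  rw [Fintype.linearIndependent_iff]
  intro g hg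
  simp only [Fin.sum_univ_add, Fin.append_left, Fin.append_right] at hg
  have ha : ∀ i, g (Fin.castAdd r i) = 0 := fun i => by
    have := congrArg (fun v => B (N (x i)) v) hg
    simpa [map_sum, d.range_isotropic, d.adj, d.sq, hx, -Fin.natAdd_eq_addNat] using this
  simp only [ha, zero_smul, Finset.sum_const_zero, zero_add] at hg
  have hb : ∀ i, g (Fin.natAdd r i) = 0 := fun i => by
    have := congrArg (fun v => B (x i) v) hg
    simpa [map_sum, hx, -Fin.natAdd_eq_addNat] using this
  intro k
  induction k using Fin.addCases with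
  | left i => exact ha i
  | right i => exact hb i

/-- A normalised family: orthonormal for `B(·, N ·)` and totally isotropic. -/
def IsHFrame (B : V →ₛₗ[σ] V →ₗ[F] F) (N : V →ₗ[F] V) (x : Fin r → V) : Prop :=
  (∀ i j, B (x i) (N (x j)) = if i = j then 1 else 0) ∧ ∀ i j, B (x i) (x j) = 0

theorem HermInv.span_eq_range [FiniteDimensional F V] (d : HermInv B q N)
    (hr : Module.finrank F (LinearMap.range N) = r) {x : Fin r → V}
    (hx : ∀ i j, B (x i) (N (x j)) = if i = j then 1 else 0) :
    Submodule.span F (Set.range fun i => N (x i)) = LinearMap.range N := by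
  refine Submodule.eq_of_le_of_finrank_eq (Submodule.span_le.mpr ?_) ?_
  · rintro _ ⟨i, rfl⟩
    exact LinearMap.mem_range_self _ _
  · have hi := (d.linearIndependent_gram hx).comp (Fin.natAdd r) (Fin.natAdd_injective r r)
    simp only [Function.comp_def, Fin.append_right] at hi
    rw [finrank_span_eq_card hi, hr, Fintype.card_fin]

/-- Two frames differ by an intertwining isometry. -/
theorem hermInv_transfer [FiniteDimensional F V] (d : HermInv B q N) (d' : HermInv B q N')
    (hr : Module.finrank F (LinearMap.range N) = r) (hr' : Module.finrank F (LinearMap.range N') = r)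
    {x x' : Fin r → V} (hx : IsHFrame B N x) (hx' : IsHFrame B N' x') :
    ∃ g : V ≃ₗ[F] V, (∀ u v, B (g u) (g v) = B u v) ∧ ∀ v, g (N v) = N' (g v) := by
  obtain ⟨g, hg, hgv⟩ := d.herm.witt _ _ (d.linearIndependent_gram hx.1) (d'.linearIndependent_gram hx'.1)
    (fun i j => by
      induction i using Fin.addCases <;> induction j using Fin.addCases <;>
        simp only [Fin.append_left, Fin.append_right, hx.1, hx.2, hx'.1, hx'.2, d.range_isotropic,
          d'.range_isotropic, d.adj, d'.adj])
  have hgx : ∀ i, g (x i) = x' i := fun i => by simpa using hgv (Fin.castAdd r i)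
  have hgNx : ∀ i, g (N (x i)) = N' (x' i) := fun i => by
    have := hgv (Fin.natAdd r i)
    rwa [Fin.append_right, Fin.append_right] at this
  refine ⟨g, hg, fun v => ?_⟩
  have hv : N v ∈ Submodule.span F (Set.range fun i => N (x i)) := by
    rw [d.span_eq_range hr hx.1]; exact LinearMap.mem_range_self _ _
  obtain ⟨a, ha⟩ := (Submodule.mem_span_range_iff_exists_fun F).mp hv
  set k := v - ∑ i, a i • x i with hk
  have hNk : N k = 0 := by simp [hk, map_sum, ha]
  have hk' : N' (g k) = 0 := d'.herm.sep _ fun w => by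
    have hw : N' w ∈ Submodule.span F (Set.range fun i => N' (x' i)) := by
      rw [d'.span_eq_range hr' hx'.1]; exact LinearMap.mem_range_self _ _
    obtain ⟨b, hb⟩ := (Submodule.mem_span_range_iff_exists_fun F).mp hw
    rw [d'.adj, ← hb, map_sum]
    refine Finset.sum_eq_zero fun i _ => ?_
    rw [map_smul, ← hgNx, hg, ← d.adj, hNk, map_zero, LinearMap.zero_apply, smul_zero]
  have hv' : v = (∑ i, a i • x i) + k := by simp [hk]
  rw [hv']
  simp [map_sum, hgx, hgNx, hNk, hk']

/-- Every such `N` has a frame. -/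
theorem HermInv.exists_frame [CharP F 2] [FiniteDimensional F V] (d : HermInv B q N)
    (hr : Module.finrank F (LinearMap.range N) = r) :
    ∃ x : Fin r → V, IsHFrame B N x := by
  classical
  obtain ⟨X, hX⟩ := Submodule.exists_isCompl (LinearMap.ker N)
  have hXd : Module.finrank F X = r := by
    have := Submodule.finrank_add_eq_of_isCompl hX
    have := LinearMap.finrank_range_add_finrank_ker N
    omega
  let β : X →ₛₗ[σ] X →ₗ[F] F := (B.comp X.subtype).compl₂ (N.comp X.subtype)
  have hβ : H3.IsHerm β q := by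
    refine ⟨d.herm.card_eq, d.herm.sigma_apply, fun u v => ?_, fun u hu => ?_⟩
    · change σ (B u (N v)) = B v (N u)
      rw [d.herm.symm, d.adj]
    · have hNu : N (u : V) = 0 := d.herm.sep _ fun v => by
        have hv : v ∈ LinearMap.ker N ⊔ X := by rw [hX.sup_eq_top]; exact Submodule.mem_top
        obtain ⟨k, hk, x, hx, rfl⟩ := Submodule.mem_sup.mp hv
        rw [d.adj, map_add, LinearMap.mem_ker.mp hk, zero_add]
        exact hu ⟨x, hx⟩
      have : (u : V) ∈ LinearMap.ker N ⊓ X := ⟨LinearMap.mem_ker.mpr hNu, u.2⟩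
      rw [hX.inf_eq_bot, Submodule.mem_bot] at this
      exact Subtype.ext this
  obtain ⟨b, hb⟩ := hβ.exists_orth_basis hXd
  let x₀ : Fin r → V := fun i => b i
  have hx₀ : ∀ i j, B (x₀ i) (N (x₀ j)) = if i = j then 1 else 0 := fun i j => hb i j
  choose t ht using fun i => H3.exists_trace_eq d.herm.card_eq (d.herm.self_pow_q (x₀ i))
  let c : Fin r → Fin r → F := fun i j =>
    if i = j then t i else if j < i then B (x₀ j) (x₀ i) else 0
  refine ⟨fun i => x₀ i + ∑ l, c i l • N (x₀ l), fun i j => ?_, fun i j => ?_⟩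
  · simp [map_sum, map_add, d.sq, hx₀, d.range_isotropic]
  · have h1 : ∀ (e : Fin r → F) (p : V), B (∑ l, e l • N (x₀ l)) p = ∑ l, σ (e l) * B (N (x₀ l)) p :=
      fun e p => by simp [map_sum]
    simp only [map_add, LinearMap.add_apply, h1]
    simp only [map_sum, map_smul, hx₀, d.adj, d.sq, smul_eq_mul, map_zero,
      mul_zero, mul_ite, mul_one, Finset.sum_ite_eq, Finset.sum_ite_eq', Finset.mem_univ, if_true,
      add_zero, Finset.sum_const_zero]
    rcases lt_trichotomy i j with h | rfl | h
    · simp only [c, if_neg h.ne, if_neg h.ne', if_pos h, if_neg h.not_gt, map_zero, add_zero]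
      exact CharTwo.add_self_eq_zero _
    · simp only [c, if_true, d.herm.sigma_apply]
      linear_combination (ht i) + CharTwo.add_self_eq_zero (B (x₀ i) (x₀ i))
    · simp only [c, if_neg h.ne, if_neg h.ne', if_pos h, if_neg h.not_gt]
      rw [d.herm.symm, add_zero]
      exact CharTwo.add_self_eq_zero _

/-- Conjugacy of the involutions `1 + N` in the unitary group. -/
theorem hermInv_conj [CharP F 2] [FiniteDimensional F V] (d : HermInv B q N) (d' : HermInv B q N')
    (hr : Module.finrank F (LinearMap.range N) = Module.finrank F (LinearMap.range N')) :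
    ∃ g : V ≃ₗ[F] V, (∀ u v, B (g u) (g v) = B u v) ∧ ∀ v, g (N v) = N' (g v) := by
  obtain ⟨x, hx⟩ := d.exists_frame rfl
  obtain ⟨x', hx'⟩ := d'.exists_frame (r := Module.finrank F (LinearMap.range N)) hr.symm
  exact hermInv_transfer d d' rfl hr.symm hx hx'

/-- A nonzero `N` commutes with isometries of determinant `μ ^ 2`, for `μ` of norm one. -/
theorem HermInv.exists_commute_det_sq [CharP F 2] [FiniteDimensional F V] (d : HermInv B q N)
    (h0 : N ≠ 0) {μ : F} (hμ : μ ^ (q + 1) = 1) :
    ∃ c : V ≃ₗ[F] V, (∀ u v, B (c u) (c v) = B u v) ∧ (∀ v, c (N v) = N (c v)) ∧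
      LinearMap.det (c : V →ₗ[F] V) = μ ^ 2 := by
  obtain ⟨x, hx⟩ : ∃ x : Fin (Module.finrank F (LinearMap.range N)) → V, IsHFrame B N x :=
    d.exists_frame rfl
  have hpos : 0 < Module.finrank F (LinearMap.range N) := by
    rw [Nat.pos_iff_ne_zero]
    intro h
    exact h0 (LinearMap.range_eq_bot.mp (Submodule.finrank_eq_zero.mp h))
  let i₀ : Fin (Module.finrank F (LinearMap.range N)) := ⟨0, hpos⟩
  set u₀ := x i₀
  set w := N u₀ with hw
  have hxx : B u₀ u₀ = 0 := hx.2 _ _
  have hxw : B u₀ w = 1 := (hx.1 _ _).trans (if_pos rfl)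
  have hwx : B w u₀ = 1 := by rw [hw, d.adj]; exact hxw
  have hww : B w w = 0 := d.range_isotropic _ _
  have hμ0 : μ ≠ 0 := by rintro rfl; simp at hμ
  let c₀ : V →ₗ[F] V :=
    LinearMap.transvection ((μ - 1) • B w) u₀ ∘ₗ LinearMap.transvection ((μ - 1) • B u₀) w
  have hc : ∀ v, c₀ v = v + ((μ - 1) * B u₀ v) • w + ((μ - 1) * B w v) • u₀ := fun v => by
    simp [c₀, LinearMap.transvection.apply, hww]
  have hdet : LinearMap.det c₀ = μ ^ 2 := by
    simp [c₀, LinearMap.det_comp, LinearMap.transvection.det, hxw, hwx, pow_two]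
  have hu : IsUnit (LinearMap.det c₀) := by rw [hdet]; exact (pow_ne_zero 2 hμ0).isUnit
  have hbij : Function.Bijective c₀ :=
    (Module.End.isUnit_iff c₀).mp ((LinearMap.isUnit_iff_isUnit_det c₀).mpr hu)
  refine ⟨LinearEquiv.ofBijective c₀ hbij, fun u v => ?_, fun v => ?_, ?_⟩
  · have hs : σ (μ - 1) = μ ^ q - 1 := by rw [map_sub, map_one, d.herm.sigma_apply]
    have e : μ ^ q * μ = 1 := by rw [← pow_succ, hμ]
    simp only [LinearEquiv.ofBijective_apply, hc, map_add, LinearMap.add_apply, map_smul,
      LinearMap.map_smulₛₗ, LinearMap.smul_apply, smul_eq_mul, map_mul, hs,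
      d.herm.symm, hxx, hxw, hwx, hww]
    linear_combination (B u w * B u₀ v + B u u₀ * B w v) * e
  · have h1 : ∀ v, B u₀ (N v) = B w v := fun v => by rw [hw, d.adj]
    simp [LinearEquiv.ofBijective_apply, hc, map_add, map_smul, h1, hw, d.sq, d.range_isotropic]
  · convert hdet using 2
    exact LinearMap.ext fun v => rfl

end Cfsg.Agent.H65
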