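import Cfsg.Agent.H2.Basis
import Cfsg.Agent.H65.SymBilin

/-!
Involutions of symplectic groups in characteristic two, in terms of `N = t - 1`: normal forms.
-/

set_option autoImplicit false

open LinearMap (BilinForm)
open Matrix

namespace Cfsg.Agent.H65

variable {F V : Type*} [Field F] [AddCommGroup V] [Module F V]

/-- `N = t - 1` for an involutory isometry `t` of the symplectic form `B` in characteristic two. -/
structure InvData (B : BilinForm F V) (N : V →ₗ[F] V) : Prop where
  nondeg : B.Nondegenerate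
  alt : B.IsAlt
  sq : ∀ v, N (N v) = 0
  adj : ∀ u v, B (N u) v = B u (N v)

/-- The form `(u, v) ↦ B(u, N v)` is alternating (type a). -/
def IsAltType (B : BilinForm F V) (N : V →ₗ[F] V) : Prop := ∀ v, B v (N v) = 0

/-- A frame for `N`: prescribed Gram matrix of `B(·, N ·)` and totally isotropic. -/
def IsFrame {ι : Type*} (B : BilinForm F V) (N : V →ₗ[F] V) (G : Matrix ι ι F) (x : ι → V) : Prop :=
  (∀ i j, B (x i) (N (x j)) = G i j) ∧ ∀ i j, B (x i) (x j) = 0

variable {B : BilinForm F V} {N N' : V →ₗ[F] V}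

theorem InvData.symm [CharP F 2] (d : InvData B N) (u v : V) : B u v = B v u := by
  rw [← d.alt.neg_eq v u, CharTwo.neg_eq]

theorem InvData.beta_symm [CharP F 2] (d : InvData B N) (u v : V) : B u (N v) = B v (N u) := by
  rw [← d.adj, d.symm]

theorem InvData.range_isotropic (d : InvData B N) (u v : V) : B (N u) (N v) = 0 := by
  rw [d.adj, d.sq, map_zero]

theorem InvData.mem_ker_iff (d : InvData B N) (k : V) :
    k ∈ LinearMap.ker N ↔ ∀ v, B (N v) k = 0 := by
  refine ⟨fun h v => ?_, fun h => ?_⟩
  · rw [d.adj, LinearMap.mem_ker.mp h, map_zero]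
  · rw [LinearMap.mem_ker]
    exact d.nondeg.2 (N k) fun v => by rw [← d.adj]; exact h v

variable {ι : Type*} [Fintype ι] [DecidableEq ι]

/-- A family with invertible `B(·, N ·)`-Gram matrix maps to an independent family. -/
theorem InvData.linearIndependent_gram (d : InvData B N) {G : Matrix ι ι F} (hG : IsUnit G.det)
    {x : ι → V} (hx : ∀ i j, B (x i) (N (x j)) = G i j) :
    LinearIndependent F (Sum.elim x (fun i => N (x i))) := by
  have hker : ∀ a : ι → F, (∀ j, ∑ i, a i * G i j = 0) → ∀ i, a i = 0 := by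
    intro a ha i
    have h : a ᵥ* G = 0 := funext fun j => by simpa [Matrix.vecMul, dotProduct] using ha j
    have h2 := congrArg (fun w => w ᵥ* G⁻¹) h
    simp only [Matrix.vecMul_vecMul, Matrix.mul_nonsing_inv _ hG, Matrix.vecMul_one, Matrix.zero_vecMul] at h2
    exact congrFun h2 i
  rw [Fintype.linearIndependent_iff]
  intro g hg
  simp only [Fintype.sum_sum_type, Sum.elim_inl, Sum.elim_inr] at hg
  have ha : ∀ i, g (.inl i) = 0 := hker _ fun j => by
    have := congrArg (fun v => B v (N (x j))) hg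
    simpa [map_sum, LinearMap.sum_apply, hx, d.range_isotropic] using this
  simp only [ha, zero_smul, Finset.sum_const_zero, zero_add] at hg
  have hb : ∀ i, g (.inr i) = 0 := hker _ fun j => by
    have := congrArg (fun v => B v (x j)) hg
    simpa [map_sum, LinearMap.sum_apply, hx, d.adj] using this
  rintro (i | i)
  · exact ha i
  · exact hb i

/-- The images of a Gram family span the range. -/
theorem InvData.span_gram_eq_range [FiniteDimensional F V] (d : InvData B N) {G : Matrix ι ι F}
    (hG : IsUnit G.det) (hc : Fintype.card ι = Module.finrank F (LinearMap.range N)) {x : ι → V}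
    (hx : ∀ i j, B (x i) (N (x j)) = G i j) :
    Submodule.span F (Set.range fun i => N (x i)) = LinearMap.range N := by
  refine Submodule.eq_of_le_of_finrank_eq (Submodule.span_le.mpr ?_) ?_
  · rintro _ ⟨i, rfl⟩
    exact LinearMap.mem_range_self _ _
  · rw [← hc]
    exact finrank_span_eq_card ((d.linearIndependent_gram hG hx).comp _ Sum.inr_injective)

/-- Every vector is a combination of a Gram family and a kernel vector. -/
theorem InvData.exists_decomp [FiniteDimensional F V] (d : InvData B N) {G : Matrix ι ι F}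
    (hG : IsUnit G.det) (hc : Fintype.card ι = Module.finrank F (LinearMap.range N)) {x : ι → V}
    (hx : ∀ i j, B (x i) (N (x j)) = G i j) (v : V) :
    ∃ (a : ι → F) (k : V), N k = 0 ∧ v = (∑ i, a i • x i) + k := by
  have hv : N v ∈ Submodule.span F (Set.range fun i => N (x i)) := by
    rw [d.span_gram_eq_range hG hc hx]; exact LinearMap.mem_range_self _ _
  obtain ⟨a, ha⟩ := (Submodule.mem_span_range_iff_exists_fun F).mp hv
  exact ⟨a, v - ∑ i, a i • x i, by simp [map_sum, ha], by abel⟩

/-- Two frames with the same Gram matrix differ by an intertwining isometry. -/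
theorem exists_transfer [CharP F 2] [FiniteDimensional F V] (d : InvData B N) (d' : InvData B N')
    {G : Matrix ι ι F} (hG : IsUnit G.det)
    (hc : Fintype.card ι = Module.finrank F (LinearMap.range N))
    (hc' : Fintype.card ι = Module.finrank F (LinearMap.range N'))
    {x x' : ι → V} (hx : IsFrame B N G x) (hx' : IsFrame B N' G x') :
    ∃ g ∈ H2.isometries B, (∀ i, g (x i) = x' i) ∧ ∀ v, g (N v) = N' (g v) := by
  have hi := d.linearIndependent_gram hG hx.1
  have hi' := d'.linearIndependent_gram hG hx'.1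
  let bX := Module.Basis.span hi
  let X := Submodule.span F (Set.range (Sum.elim x fun i => N (x i)))
  let φ : X →ₗ[F] V := bX.constr F (Sum.elim x' fun i => N' (x' i))
  have hφb : ∀ k, φ (bX k) = Sum.elim x' (fun i => N' (x' i)) k := bX.constr_basis F _
  have hbX : ∀ k, (bX k : V) = Sum.elim x (fun i => N (x i)) k := fun k => by
    simp [bX, Module.Basis.span_apply]
  have hinj : Function.Injective φ := by
    rw [← LinearMap.ker_eq_bot, eq_bot_iff]
    intro z hz
    rw [LinearMap.mem_ker, Module.Basis.constr_apply_fintype] at hz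
    have h0 := Fintype.linearIndependent_iff.mp hi' _ hz
    simp only [Submodule.mem_bot]
    exact bX.equivFun.map_eq_zero_iff.mp (funext h0)
  have hφ : ∀ z z', B (φ z) (φ z') = B (z : V) z' := by
    suffices B.compl₁₂ φ φ = B.compl₁₂ X.subtype X.subtype from
      fun z z' => LinearMap.congr_fun (LinearMap.congr_fun this z) z'
    refine LinearMap.ext_basis bX bX fun k l => ?_
    simp only [LinearMap.compl₁₂_apply, Submodule.coe_subtype, hφb, hbX]
    rcases k with i | i <;> rcases l with j | j <;>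
      simp [hx.1, hx.2, hx'.1, hx'.2, d.adj, d'.adj, d.sq, d'.sq]
  obtain ⟨g, hg, hgX⟩ := H2.exists_isometry_extend B d.nondeg d.alt X φ hinj hφ
  have hgk : ∀ k, g (Sum.elim x (fun i => N (x i)) k) = Sum.elim x' (fun i => N' (x' i)) k := fun k => by
    rw [← hbX k, hgX, hφb]
  have hgx : ∀ i, g (x i) = x' i := fun i => hgk (.inl i)
  have hgNx : ∀ i, g (N (x i)) = N' (x' i) := fun i => hgk (.inr i)
  refine ⟨g, hg, hgx, fun v => ?_⟩
  obtain ⟨a, k, hk, rfl⟩ := d.exists_decomp hG hc hx.1 v
  have hk' : N' (g k) = 0 := by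
    rw [← LinearMap.mem_ker, d'.mem_ker_iff]
    intro w
    have hw : N' w ∈ Submodule.span F (Set.range fun i => N' (x' i)) := by
      rw [d'.span_gram_eq_range hG hc' hx'.1]; exact LinearMap.mem_range_self _ _
    obtain ⟨b, hb⟩ := (Submodule.mem_span_range_iff_exists_fun F).mp hw
    rw [← hb, map_sum, LinearMap.sum_apply]
    refine Finset.sum_eq_zero fun i _ => ?_
    rw [map_smul, LinearMap.smul_apply, ← hgNx, hg, d.adj, hk, map_zero, smul_zero]
  simp [map_sum, hgx, hgNx, hk, hk']

omit [DecidableEq ι] in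
/-- Adjusting a Gram family by range vectors: the new values of `B`. -/
theorem InvData.gram_shift [CharP F 2] (d : InvData B N) {G : Matrix ι ι F}
    {x : ι → V} (hx : ∀ i j, B (x i) (N (x j)) = G i j) (k : ι → V) (hk : ∀ i, N (k i) = 0)
    (c : Matrix ι ι F) (i j : ι) :
    B (x i + (k i + ∑ l, c i l • N (x l))) (x j + (k j + ∑ l, c j l • N (x l))) =
      B (x i + k i) (x j + k j) + ((c * G) i j + (c * G) j i) := by
  have h2 : ∀ (e : ι → F) p, B (∑ l, e l • N (x l)) p = ∑ l, e l * B (N (x l)) p := fun e p => by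
    simp [map_sum, LinearMap.sum_apply]
  have e1 : ∀ l, B (N (x l)) (x i + k i) = G l i := fun l => by
    simp [d.adj, hx, hk]
  have e2 : ∀ l, B (N (x l)) (x j + k j) = G l j := fun l => by
    simp [d.adj, hx, hk]
  have hP : ∀ P P' Q Q' : V, B (P + P') (Q + Q') = B P Q + B Q' P + (B P' Q + B P' Q') := fun P P' Q Q' => by
    simp only [map_add, LinearMap.add_apply, d.symm P Q']
    ring
  rw [← add_assoc, ← add_assoc, hP, h2, h2, h2 (c i) (∑ l, c j l • N (x l))]
  simp only [e1, e2, map_sum, map_smul, d.range_isotropic, smul_zero, Finset.sum_const_zero,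
    Matrix.mul_apply, mul_zero]
  ring

/-- Strictly upper part of a matrix. -/
def upperPart [LinearOrder ι] (A : Matrix ι ι F) : Matrix ι ι F :=
  Matrix.of fun i j => if i < j then A i j else 0

omit [Fintype ι] [DecidableEq ι] in
theorem upperPart_add [LinearOrder ι] (A : Matrix ι ι F) (hd : ∀ i, A i i = 0)
    (hs : ∀ i j, A i j = A j i) [CharP F 2] (i j : ι) :
    upperPart A i j + upperPart A j i = A i j := by
  rcases lt_trichotomy i j with h | rfl | h
  · simp [upperPart, h, h.not_gt]
  · simp [upperPart, hd]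
  · simp [upperPart, h, h.not_gt, hs i j]

/-- A Gram family can be adjusted to a frame. -/
theorem InvData.exists_frame [CharP F 2] (d : InvData B N) {G : Matrix ι ι F}
    (hG : IsUnit G.det) {x₀ : ι → V} (hx : ∀ i j, B (x₀ i) (N (x₀ j)) = G i j) :
    ∃ x, IsFrame B N G x := by
  let _ : LinearOrder ι := LinearOrder.lift' (Fintype.equivFin ι) (Fintype.equivFin ι).injective
  let A : Matrix ι ι F := Matrix.of fun i j => B (x₀ i) (x₀ j)
  let c := upperPart A * G⁻¹
  have hcG : c * G = upperPart A := by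
    simp [c, Matrix.mul_assoc, Matrix.nonsing_inv_mul _ hG]
  refine ⟨fun i => x₀ i + (0 + ∑ l, c i l • N (x₀ l)), fun i j => ?_, fun i j => ?_⟩
  · simp [map_sum, d.sq, hx, LinearMap.sum_apply, d.range_isotropic]
  · rw [d.gram_shift hx (fun _ => 0) (fun _ => map_zero N) c i j, hcG]
    have := upperPart_add A (fun k => d.alt (x₀ k)) (fun k l => d.symm _ _) i j
    simp only [add_zero]
    rw [this]
    exact CharTwo.add_self_eq_zero _

omit [Fintype ι] [DecidableEq ι] in
/-- A complement of the kernel carries a non-degenerate form `B(·, N ·)`. -/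
theorem InvData.exists_compl [FiniteDimensional F V] (d : InvData B N) :
    ∃ X : Submodule F V, Module.finrank F X = Module.finrank F (LinearMap.range N) ∧
      (∀ v, ∃ x ∈ X, N (v - x) = 0) ∧ ∀ u ∈ X, (∀ v ∈ X, B u (N v) = 0) → u = 0 := by
  obtain ⟨X, hX⟩ := Submodule.exists_isCompl (LinearMap.ker N)
  have hdec : ∀ v, ∃ x ∈ X, N (v - x) = 0 := fun v => by
    have hv : v ∈ LinearMap.ker N ⊔ X := by rw [hX.sup_eq_top]; exact Submodule.mem_top
    obtain ⟨k, hk, x, hx, rfl⟩ := Submodule.mem_sup.mp hv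
    exact ⟨x, hx, by simpa using LinearMap.mem_ker.mp hk⟩
  refine ⟨X, ?_, hdec, fun u hu h => ?_⟩
  · have := Submodule.finrank_add_eq_of_isCompl hX
    have := LinearMap.finrank_range_add_finrank_ker N
    omega
  · have : u ∈ LinearMap.ker N ⊓ X := by
      refine ⟨LinearMap.mem_ker.mpr (d.nondeg.1 _ fun v => ?_), hu⟩
      obtain ⟨x, hx, hNx⟩ := hdec v
      rw [map_sub, sub_eq_zero] at hNx
      rw [d.adj, hNx, h x hx]
    simpa [hX.inf_eq_bot] using this

/-- Type b or c: an orthonormal Gram family. -/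
theorem InvData.exists_gram_one [CharP F 2] [FiniteDimensional F V] (d : InvData B N)
    (hsq : ∀ a : F, ∃ r : F, r * r = a) (hna : ¬ IsAltType B N) :
    ∃ x : Fin (Module.finrank F (LinearMap.range N)) → V,
      ∀ i j, B (x i) (N (x j)) = (1 : Matrix _ _ F) i j := by
  obtain ⟨X, hXd, hdec, hXn⟩ := d.exists_compl
  let β : BilinForm F X := B.compl₁₂ X.subtype (N.comp X.subtype)
  obtain ⟨x, hx⟩ := exists_orthonormal_family _ β hXd (fun u v => d.beta_symm _ _)
    (fun u hu => Subtype.ext (hXn u u.2 fun v hv => hu ⟨v, hv⟩)) (by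
      by_contra h
      refine hna fun v => by_contra fun hv => ?_
      obtain ⟨x, hxX, hx⟩ := hdec v
      refine h ⟨⟨x, hxX⟩, ?_⟩
      rw [map_sub, sub_eq_zero] at hx
      change B x (N x) ≠ 0
      rwa [hx, ← d.adj, hx, d.adj] at hv) hsq
  exact ⟨fun i => x i, fun i j => by simpa [β, Matrix.one_apply] using hx i j⟩

/-- Type a: a symplectic Gram family. -/
theorem InvData.exists_gram_J [CharP F 2] [FiniteDimensional F V] (d : InvData B N)
    (ha : IsAltType B N) :
    ∃ k, Module.finrank F (LinearMap.range N) = 2 * k ∧ ∃ x : Fin k ⊕ Fin k → V,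
      ∀ i j, B (x i) (N (x j)) = Matrix.J (Fin k) F i j := by
  obtain ⟨X, hXd, hdec, hXn⟩ := d.exists_compl
  let β : BilinForm F X := B.compl₁₂ X.subtype (N.comp X.subtype)
  have hβ : β.Nondegenerate :=
    ⟨fun u hu => Subtype.ext (hXn u u.2 fun v hv => hu ⟨v, hv⟩),
      fun u hu => Subtype.ext (hXn u u.2 fun v hv => (d.beta_symm _ _).trans (hu ⟨v, hv⟩))⟩
  obtain ⟨k, b, h1, h2, h3⟩ := H2.exists_symplectic_basis β hβ (fun u => ha _)
  refine ⟨k, ?_, fun i => (b i : V), fun i j => ?_⟩
  · rw [← hXd, Module.finrank_eq_card_basis b]; simp; omega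
  · change β (b i) (b j) = _
    rcases i with i | i <;> rcases j with j | j
    · simp [h2, Matrix.J]
    · simp [h1, Matrix.J, Matrix.one_apply, CharTwo.neg_eq]
    · rw [show β (b (.inr i)) (b (.inl j)) = β (b (.inl j)) (b (.inr i)) from d.beta_symm _ _, h1]
      simp [Matrix.J, Matrix.one_apply, eq_comm]
    · simp [h3, Matrix.J]

theorem InvData.even_rank [CharP F 2] [FiniteDimensional F V] (d : InvData B N) (ha : IsAltType B N) :
    Even (Module.finrank F (LinearMap.range N)) := by
  obtain ⟨k, hk, -⟩ := d.exists_gram_J ha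
  exact ⟨k, by omega⟩

omit [Fintype ι] [DecidableEq ι] in
/-- Conjugacy of the involutions `1 + N` in the symplectic group. -/
theorem invData_conj_iff [CharP F 2] [FiniteDimensional F V] (hsq : ∀ a : F, ∃ r : F, r * r = a)
    (d : InvData B N) (d' : InvData B N') :
    (∃ g ∈ H2.isometries B, ∀ v, g (N v) = N' (g v)) ↔
      Module.finrank F (LinearMap.range N) = Module.finrank F (LinearMap.range N') ∧
        (IsAltType B N ↔ IsAltType B N') := by
  constructor
  · rintro ⟨g, hg, h⟩
    constructor
    · have : LinearMap.range N' = (LinearMap.range N).map (g : V →ₗ[F] V) := by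
        ext w
        simp only [Submodule.mem_map, LinearMap.mem_range, LinearEquiv.coe_coe]
        constructor
        · rintro ⟨v, rfl⟩
          exact ⟨N (g.symm v), ⟨_, rfl⟩, by rw [h, g.apply_symm_apply]⟩
        · rintro ⟨_, ⟨v, rfl⟩, rfl⟩
          exact ⟨g v, (h v).symm⟩
      rw [this, LinearEquiv.finrank_map_eq]
    · refine ⟨fun ha v => ?_, fun ha v => ?_⟩
      · obtain ⟨u, rfl⟩ := g.surjective v
        rw [← h, hg, ha u]
      · rw [← hg, h, ha]
  · rintro ⟨hr, ha⟩
    by_cases hA : IsAltType B N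
    · obtain ⟨k, hk, x₀, hx₀⟩ := d.exists_gram_J hA
      obtain ⟨k', hk', y₀, hy₀⟩ := d'.exists_gram_J (ha.mp hA)
      obtain rfl : k = k' := by omega
      have hG := Matrix.isUnit_det_J (Fin k) F
      obtain ⟨x, hx⟩ := d.exists_frame hG hx₀
      obtain ⟨y, hy⟩ := d'.exists_frame hG hy₀
      obtain ⟨g, hg, -, h⟩ := exists_transfer d d' hG (by simp; omega) (by simp; omega) hx hy
      exact ⟨g, hg, h⟩
    · obtain ⟨x₀, hx₀⟩ := d.exists_gram_one hsq hA
      have hA' := mt ha.mpr hA
      obtain ⟨y₁, hy₁⟩ : ∃ y₁ : Fin (Module.finrank F (LinearMap.range N)) → V,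
          ∀ i j, B (y₁ i) (N' (y₁ j)) = (1 : Matrix _ _ F) i j := by
        obtain ⟨y₁, hy₁⟩ := d'.exists_gram_one hsq hA'
        refine ⟨y₁ ∘ Fin.cast hr, fun i j => ?_⟩
        simp [hy₁, Matrix.one_apply, Fin.ext_iff]
      have hG : IsUnit (1 : Matrix (Fin (Module.finrank F (LinearMap.range N))) (Fin (Module.finrank F (LinearMap.range N))) F).det := by simp
      obtain ⟨x, hx⟩ := d.exists_frame hG hx₀
      obtain ⟨y, hy⟩ := d'.exists_frame hG hy₁
      obtain ⟨g, hg, -, h⟩ := exists_transfer d d' hG (by simp) (by simp [hr]) hx hy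
      exact ⟨g, hg, h⟩

end Cfsg.Agent.H65
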