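import Cfsg.Agent.H65.SpInvol

/-!
Transfer of the classification of symplectic involutions to `Matrix.symplecticGroup`.
-/

set_option autoImplicit false

open Matrix

namespace Cfsg.Agent.H65

variable {F : Type*} [Field F] {m : ℕ}

/-- `t - 1` as a linear map. -/
def spN (a : Matrix.symplecticGroup (Fin m) F) :
    (Fin m ⊕ Fin m → F) →ₗ[F] (Fin m ⊕ Fin m → F) :=
  Matrix.toLin' ((a : Matrix (Fin m ⊕ Fin m) (Fin m ⊕ Fin m) F) - 1)

theorem spN_apply (a : Matrix.symplecticGroup (Fin m) F) (v : Fin m ⊕ Fin m → F) :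
    spN a v = (a : Matrix (Fin m ⊕ Fin m) (Fin m ⊕ Fin m) F) *ᵥ v - v := by
  simp [spN, Matrix.sub_mulVec]

theorem finrank_range_spN (a : Matrix.symplecticGroup (Fin m) F) :
    Module.finrank F (LinearMap.range (spN a)) =
      ((a : Matrix (Fin m ⊕ Fin m) (Fin m ⊕ Fin m) F) - 1).rank := rfl

variable [CharP F 2]

theorem invData_spN (a : Matrix.symplecticGroup (Fin m) F) (ha : a ^ 2 = 1) :
    InvData (H2.sympBilin m F) (spN a) := by
  have hm : (a : Matrix (Fin m ⊕ Fin m) (Fin m ⊕ Fin m) F) * a = 1 := by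
    have := congrArg Subtype.val ha
    rwa [pow_two, Submonoid.coe_mul, Submonoid.coe_one] at this
  refine ⟨H2.sympBilin_nondegenerate m F, H2.sympBilin_isAlt m F, fun v => ?_, fun u v => ?_⟩
  · simp only [spN_apply, Matrix.mulVec_sub, Matrix.mulVec_mulVec, hm, Matrix.one_mulVec]
    ext i
    simp only [Pi.sub_apply, Pi.zero_apply]
    linear_combination (v i - (a.1 *ᵥ v) i) * (CharTwo.two_eq_zero : (2 : F) = 0)
  · simp only [spN_apply, map_sub, LinearMap.sub_apply, H2.sympBilin_apply]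
    rw [sub_left_inj]
    conv_rhs => rw [← H2.sympForm_mulVec a u (a.1 *ᵥ v), Matrix.mulVec_mulVec, hm, Matrix.one_mulVec]

theorem isAltType_spN_iff (a : Matrix.symplecticGroup (Fin m) F) :
    IsAltType (H2.sympBilin m F) (spN a) ↔
      ∀ v, Cfsg.sympForm m F v ((a : Matrix (Fin m ⊕ Fin m) (Fin m ⊕ Fin m) F) *ᵥ v) = 0 := by
  simp only [IsAltType, spN_apply, map_sub, H2.sympBilin_apply, H2.sympForm_self, sub_zero]

omit [CharP F 2] in
theorem isConj_iff_intertwine (a b : Matrix.symplecticGroup (Fin m) F) :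
    IsConj a b ↔ ∃ g ∈ H2.isometries (H2.sympBilin m F), ∀ v, g (spN a v) = spN b (g v) := by
  constructor
  · intro h
    obtain ⟨c, hc⟩ := isConj_iff.mp h
    refine ⟨H2.spEquivIsometries m F c, (H2.spEquivIsometries m F c).2, fun v => ?_⟩
    rw [mul_inv_eq_iff_eq_mul] at hc
    have := congrArg (fun x : Matrix.symplecticGroup (Fin m) F => x.1 *ᵥ v) hc
    simp only [Submonoid.coe_mul, ← Matrix.mulVec_mulVec] at this
    simp [spN_apply, Matrix.mulVec_sub, this]
  · rintro ⟨g, hg, h⟩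
    obtain ⟨c, hc⟩ := (H2.spEquivIsometries m F).surjective ⟨g, hg⟩
    refine isConj_iff.mpr ⟨c, ?_⟩
    rw [mul_inv_eq_iff_eq_mul]
    refine H2.ext_of_mulVec fun v => ?_
    have hgc : ∀ w, g w = c.1 *ᵥ w := fun w => by
      rw [← H2.spEquivIsometries_apply c w, hc]
    have := h v
    simp only [spN_apply, hgc, Matrix.mulVec_sub, sub_left_inj] at this
    simp [← Matrix.mulVec_mulVec, this]

variable [Finite F]

/-- Conjugacy of involutions in `Sp_2m`, in terms of rank and type. -/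
theorem sp_isConj_iff (a b : Matrix.symplecticGroup (Fin m) F) (ha : a ^ 2 = 1) (hb : b ^ 2 = 1) :
    IsConj a b ↔
      ((a : Matrix (Fin m ⊕ Fin m) (Fin m ⊕ Fin m) F) - 1).rank =
          ((b : Matrix (Fin m ⊕ Fin m) (Fin m ⊕ Fin m) F) - 1).rank ∧
        ((∀ v, Cfsg.sympForm m F v (a.1 *ᵥ v) = 0) ↔ ∀ v, Cfsg.sympForm m F v (b.1 *ᵥ v) = 0) := by
  rw [isConj_iff_intertwine, invData_conj_iff isSquare_char_two (invData_spN a ha) (invData_spN b hb),
    isAltType_spN_iff, isAltType_spN_iff, finrank_range_spN, finrank_range_spN]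

/-- The isotropic set of an involution is everything or has index `|F|`. -/
theorem card_isotropicSet (a : Matrix.symplecticGroup (Fin m) F) (ha : a ^ 2 = 1) :
    ((∀ v, Cfsg.sympForm m F v (a.1 *ᵥ v) = 0) →
      Nat.card {v : Fin m ⊕ Fin m → F // Cfsg.sympForm m F v (a.1 *ᵥ v) = 0} =
        Nat.card F ^ (2 * m)) ∧
    (¬ (∀ v, Cfsg.sympForm m F v (a.1 *ᵥ v) = 0) →
      Nat.card {v : Fin m ⊕ Fin m → F // Cfsg.sympForm m F v (a.1 *ᵥ v) = 0} * Nat.card F =
        Nat.card F ^ (2 * m)) := by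
  have hV : Nat.card (Fin m ⊕ Fin m → F) = Nat.card F ^ (2 * m) := by
    rw [Nat.card_fun, Nat.card_sum, Nat.card_fin, two_mul]
  refine ⟨fun h => ?_, fun h => ?_⟩
  · rw [← hV]; exact Nat.card_congr (Equiv.subtypeUnivEquiv h)
  · have d := invData_spN a ha
    have hval : ∀ v, H2.sympBilin m F v (spN a v) = Cfsg.sympForm m F v (a.1 *ᵥ v) := fun v => by
      simp [spN_apply, map_sub]
    let φ : (Fin m ⊕ Fin m → F) →+ F :=
      AddMonoidHom.mk' (fun v => H2.sympBilin m F v (spN a v))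
        (diag_add ((H2.sympBilin m F).compl₂ (spN a)) d.beta_symm)
    have hsurj : Function.Surjective φ := by
      push Not at h
      obtain ⟨v₀, hv₀⟩ := h
      rw [← hval] at hv₀
      intro c
      obtain ⟨r, hr⟩ := isSquare_char_two (c * (H2.sympBilin m F v₀ (spN a v₀))⁻¹)
      refine ⟨r • v₀, ?_⟩
      change H2.sympBilin m F (r • v₀) (spN a (r • v₀)) = c
      simp only [map_smul, LinearMap.smul_apply, smul_eq_mul]
      rw [← mul_assoc, hr, mul_assoc, inv_mul_cancel₀ hv₀, mul_one]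
    have e := AddSubgroup.card_eq_card_quotient_mul_card_addSubgroup φ.ker
    rw [hV, Nat.card_congr (QuotientAddGroup.quotientKerEquivOfSurjective φ hsurj).toEquiv] at e
    rw [e, mul_comm]
    congr 1
    exact Nat.card_congr (Equiv.subtypeEquivRight fun v => by rw [← hval]; rfl)

end Cfsg.Agent.H65
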